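import Mathlib
import Cfsg.Agent.Lib.Helper41.Dickson.Cards

set_option autoImplicit false

namespace Cfsg.Agent.Lib.Helper26.ES3

open Matrix

theorem BOR_scalar_pow {p : ℕ} [Fact p.Prime] (u : (ZMod p)ˣ)
    (h : (GeneralLinearGroup.scalar (Fin 2) u) ^ p = 1) : u = 1 := by
  rw [← map_pow] at h
  have hu : u ^ p = u := Units.ext (by simp [ZMod.pow_card])
  rw [hu] at h
  have h2 := congrArg (fun g : GL (Fin 2) (ZMod p) => g.val 0 0) h
  simp at h2
  exact h2

theorem BOR_card_sylow {p : ℕ} [Fact p.Prime]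
    (S : Sylow p (Matrix.ProjGenLinGroup (Fin 2) (ZMod p))) :
    Nat.card (S : Subgroup (Matrix.ProjGenLinGroup (Fin 2) (ZMod p))) = p := by
  have hp : p.Prime := Fact.out
  have : Finite (Matrix.ProjGenLinGroup (Fin 2) (ZMod p)) :=
    Finite.of_surjective _ Matrix.ProjGenLinGroup.mk_surjective
  rw [S.card_eq_multiplicity, Cfsg.Agent.Lib.Helper41.Dickson.natCard_PGL2, Nat.card_zmod]
  have h1 : ¬ p ∣ p ^ 2 - 1 := by
    intro h
    have h2 : p ∣ p ^ 2 := dvd_pow_self p (by norm_num)
    have h3 : p ^ 2 - 1 + 1 = p ^ 2 := Nat.sub_add_cancel (Nat.one_le_pow _ _ hp.pos)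
    rw [← h3] at h2
    exact hp.one_lt.ne' (Nat.dvd_one.1 ((Nat.dvd_add_right h).1 h2))
  have h0 : p ^ 2 - 1 ≠ 0 := fun h => h1 (h ▸ dvd_zero p)
  rw [Nat.factorization_mul hp.ne_zero h0, Finsupp.add_apply, hp.factorization_self,
    Nat.factorization_eq_zero_of_not_dvd h1, add_zero, pow_one]

/-- a nonzero fixed vector of an element of order dividing `p` -/
theorem BOR_exists_fixed {p : ℕ} [Fact p.Prime] (M : GL (Fin 2) (ZMod p)) (hM : M ^ p = 1) :
    ∃ v : Fin 2 → ZMod p, v ≠ 0 ∧ M.val *ᵥ v = v := by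
  have hp : p.Prime := Fact.out
  have h1 : (M.val - 1) ^ p = 0 := by
    rw [sub_pow_char_of_commute p (Commute.one_right _), one_pow, ← Units.val_pow_eq_pow_val, hM]
    simp
  have h2 : (M.val - 1).det = 0 := by
    have := congrArg Matrix.det h1
    rw [Matrix.det_pow, Matrix.det_zero] at this
    exact pow_eq_zero_iff hp.ne_zero |>.1 this
  obtain ⟨v, hv, hv2⟩ := Matrix.exists_mulVec_eq_zero_iff.2 h2
  refine ⟨v, hv, ?_⟩
  rw [Matrix.sub_mulVec, Matrix.one_mulVec, sub_eq_zero] at hv2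
  exact hv2

/-- the fixed space of a non-identity matrix is at most a line -/
theorem BOR_line {F : Type*} [Field F] (M : Matrix (Fin 2) (Fin 2) F) (hM : M ≠ 1)
    (v w : Fin 2 → F) (hv : v ≠ 0) (h1 : M *ᵥ v = v) (h2 : M *ᵥ w = w) : ∃ β : F, w = β • v := by
  have a0 := congrFun h1 0
  have a1 := congrFun h1 1
  have b0 := congrFun h2 0
  have b1 := congrFun h2 1
  simp only [Matrix.mulVec, dotProduct, Fin.sum_univ_two] at a0 a1 b0 b1
  by_cases hD : v 0 * w 1 - v 1 * w 0 = 0
  · by_cases hx : v 0 = 0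
    · have hy : v 1 ≠ 0 := by
        intro hy
        apply hv
        funext i
        fin_cases i
        · exact hx
        · exact hy
      have hz : w 0 = 0 := by
        rw [hx] at hD
        have : v 1 * w 0 = 0 := by linear_combination -hD
        exact (mul_eq_zero.1 this).resolve_left hy
      refine ⟨w 1 / v 1, ?_⟩
      funext i
      fin_cases i
      · simp [hx, hz]
      · simp; field_simp
    · refine ⟨w 0 / v 0, ?_⟩
      funext i
      fin_cases i
      · simp; field_simp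
      · simp; field_simp; linear_combination hD
  · exfalso
    apply hM
    have e00 : (M 0 0 - 1) * (v 0 * w 1 - v 1 * w 0) = 0 := by
      linear_combination w 1 * a0 - v 1 * b0
    have e01 : M 0 1 * (v 0 * w 1 - v 1 * w 0) = 0 := by
      linear_combination v 0 * b0 - w 0 * a0
    have e10 : M 1 0 * (v 0 * w 1 - v 1 * w 0) = 0 := by
      linear_combination w 1 * a1 - v 1 * b1
    have e11 : (M 1 1 - 1) * (v 0 * w 1 - v 1 * w 0) = 0 := by
      linear_combination v 0 * b1 - w 0 * a1
    ext i j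
    fin_cases i <;> fin_cases j
    · simpa [sub_eq_zero] using (mul_eq_zero.1 e00).resolve_right hD
    · simpa using (mul_eq_zero.1 e01).resolve_right hD
    · simpa using (mul_eq_zero.1 e10).resolve_right hD
    · simpa [sub_eq_zero] using (mul_eq_zero.1 e11).resolve_right hD

/-- a determinant one matrix with a nonzero fixed vector is unipotent -/
theorem BOR_unipotent {p : ℕ} [Fact p.Prime] (K : GL (Fin 2) (ZMod p)) (hdet : K.val.det = 1)
    (v : Fin 2 → ZMod p) (hv : v ≠ 0) (hK : K.val *ᵥ v = v) : K ^ p = 1 := by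
  have hp : p.Prime := Fact.out
  set N := K.val - 1 with hN
  have hNdet : N.det = 0 := by
    apply Matrix.exists_mulVec_eq_zero_iff.1
    refine ⟨v, hv, ?_⟩
    rw [hN, Matrix.sub_mulVec, Matrix.one_mulVec, hK, sub_self]
  rw [Matrix.det_fin_two] at hNdet hdet
  have n00 : N 0 0 = K.val 0 0 - 1 := by simp [hN]
  have n01 : N 0 1 = K.val 0 1 := by simp [hN]
  have n10 : N 1 0 = K.val 1 0 := by simp [hN]
  have n11 : N 1 1 = K.val 1 1 - 1 := by simp [hN]
  have htr : N 0 0 + N 1 1 = 0 := by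
    rw [n00, n01, n10, n11] at hNdet
    rw [n00, n11]
    linear_combination hdet - hNdet
  have hN2 : N ^ 2 = 0 := by
    rw [sq]
    ext i j
    fin_cases i <;> fin_cases j <;> simp only [Matrix.mul_apply, Fin.sum_univ_two, Fin.zero_eta,
      Fin.mk_one, Matrix.zero_apply, Fin.isValue]
    · linear_combination N 0 0 * htr - hNdet
    · linear_combination N 0 1 * htr
    · linear_combination N 1 0 * htr
    · linear_combination N 1 1 * htr - hNdet
  have hNp : N ^ p = 0 := by
    exact pow_eq_zero_of_le hp.two_le hN2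
  have hKN : K.val = N + 1 := by rw [hN]; abel
  apply Units.ext
  rw [Units.val_pow_eq_pow_val, hKN, add_pow_char_of_commute p (Commute.one_right _), hNp,
    one_pow, zero_add]
  rfl

theorem BOR_pow_fix {F : Type*} [Field F] (M : GL (Fin 2) F) (v : Fin 2 → F)
    (h : M.val *ᵥ v = v) (j : ℕ) : (M ^ j).val *ᵥ v = v := by
  induction j with
  | zero => simp
  | succ j ih =>
    rw [pow_succ, Units.val_mul, ← Matrix.mulVec_mulVec, h, ih]

/-- PIECE BOR. -/
theorem borel_commute {p : ℕ} [Fact p.Prime] (hp2 : p ≠ 2)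
    (W : Subgroup (GL (Fin 2) (ZMod p))) (hW : (Nat.card W).Coprime p)
    (S : Sylow p (Matrix.ProjGenLinGroup (Fin 2) (ZMod p)))
    (hS : W.map (Matrix.ProjGenLinGroup.mk) ≤
      Subgroup.normalizer ((S : Subgroup (Matrix.ProjGenLinGroup (Fin 2) (ZMod p))) :
        Set (Matrix.ProjGenLinGroup (Fin 2) (ZMod p))))
    (A B : GL (Fin 2) (ZMod p)) (hA : A ∈ W) (hB : B ∈ W) : A * B = B * A := by
  classical
  have hp : p.Prime := Fact.out
  have hfin : Finite (Matrix.ProjGenLinGroup (Fin 2) (ZMod p)) :=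
    Finite.of_surjective _ Matrix.ProjGenLinGroup.mk_surjective
  have hcard := BOR_card_sylow S
  -- an element `M` of order `p` with image in `S`
  obtain ⟨M, hMp, hMS, hM1⟩ : ∃ M : GL (Fin 2) (ZMod p), M ^ p = 1 ∧
      Matrix.ProjGenLinGroup.mk M ∈ (S : Subgroup (Matrix.ProjGenLinGroup (Fin 2) (ZMod p))) ∧
      Matrix.ProjGenLinGroup.mk M ≠ 1 := by
    obtain ⟨u, hu⟩ := exists_prime_orderOf_dvd_card'
      (G := (S : Subgroup (Matrix.ProjGenLinGroup (Fin 2) (ZMod p)))) p (by rw [hcard])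
    obtain ⟨M0, hM0⟩ := Matrix.ProjGenLinGroup.mk_surjective u.1
    have ho : orderOf (Matrix.ProjGenLinGroup.mk M0) = p := by
      rw [hM0, Subgroup.orderOf_coe, hu]
    obtain ⟨t, ht⟩ : p ∣ orderOf M0 := by
      have := orderOf_map_dvd Matrix.ProjGenLinGroup.mk M0
      rwa [ho] at this
    have hpos : 0 < orderOf M0 := orderOf_pos M0
    have ht0 : 0 < t := by
      rcases Nat.eq_zero_or_pos t with h | h
      · rw [h, mul_zero] at ht; omega
      · exact h
    have hMp : (M0 ^ t) ^ p = 1 := by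
      rw [← pow_mul, mul_comm, ← ht, pow_orderOf_eq_one]
    have hMne : M0 ^ t ≠ 1 := by
      intro h
      have := Nat.le_of_dvd ht0 (orderOf_dvd_of_pow_eq_one h)
      rw [ht] at this
      have h2 := hp.two_le
      nlinarith
    refine ⟨M0 ^ t, hMp, ?_, ?_⟩
    · rw [map_pow, hM0]
      exact Subgroup.pow_mem _ u.2 t
    · intro h
      rw [Matrix.ProjGenLinGroup.mk_eq_one,
        Matrix.GeneralLinearGroup.center_eq_range_scalar] at h
      obtain ⟨c, hc⟩ := h
      rw [← hc] at hMp hMne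
      apply hMne
      rw [BOR_scalar_pow c hMp, map_one]
  have hMne : M.val ≠ 1 := by
    intro h
    apply hM1
    have : M = 1 := Units.ext h
    rw [this, map_one]
  obtain ⟨v, hv, hMv⟩ := BOR_exists_fixed M hMp
  -- every element of `W` has `v` as an eigenvector
  have heig : ∀ C ∈ W, ∃ β : ZMod p, C.val *ᵥ v = β • v := by
    intro C hC
    have hn := hS (Subgroup.mem_map_of_mem _ hC)
    rw [Subgroup.mem_normalizer_iff] at hn
    have h1 := (hn _).1 hMS
    rw [← map_inv, ← map_mul, ← map_mul] at h1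
    have h1ne : Matrix.ProjGenLinGroup.mk (C * M * C⁻¹) ≠ 1 := by
      intro h
      apply hM1
      rw [map_mul, map_mul, map_inv] at h
      have h' := congrArg (fun x => (Matrix.ProjGenLinGroup.mk C)⁻¹ * x *
        (Matrix.ProjGenLinGroup.mk C)) h
      simpa [mul_assoc] using h'
    have hpw := mem_powers_of_prime_card
      (G := (S : Subgroup (Matrix.ProjGenLinGroup (Fin 2) (ZMod p)))) hcard
      (g := ⟨_, h1⟩) (g' := ⟨_, hMS⟩) (by
        intro h
        exact h1ne (congrArg Subtype.val h))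
    obtain ⟨j, hj⟩ := hpw
    have hj' := congrArg Subtype.val hj
    simp only [Subgroup.coe_pow] at hj'
    rw [← map_pow, Matrix.ProjGenLinGroup.mk_eq_mk_iff] at hj'
    obtain ⟨c, hc⟩ := hj'
    have hcomm : Commute ((C * M * C⁻¹) ^ j) (GeneralLinearGroup.scalar (Fin 2) c) := by
      have hz : GeneralLinearGroup.scalar (Fin 2) c ∈ Subgroup.center (GL (Fin 2) (ZMod p)) := by
        rw [Matrix.GeneralLinearGroup.center_eq_range_scalar]
        exact ⟨c, rfl⟩
      exact (Subgroup.mem_center_iff.1 hz _)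
    have hc1 : c = 1 := by
      apply BOR_scalar_pow
      have h3 : ((C * M * C⁻¹) ^ j * GeneralLinearGroup.scalar (Fin 2) c) ^ p = M ^ p := by
        rw [hc]
      rw [hcomm.mul_pow, hMp, ← pow_mul, mul_comm j p, pow_mul, conj_pow, hMp] at h3
      simpa using h3
    rw [hc1, map_one, mul_one, conj_pow] at hc
    have h4 : M * C = C * M ^ j := by
      calc M * C = (C * M ^ j * C⁻¹) * C := by rw [hc]
        _ = C * M ^ j := by group
    have h5 : M.val *ᵥ (C.val *ᵥ v) = C.val *ᵥ v := by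
      rw [Matrix.mulVec_mulVec, ← Units.val_mul, h4, Units.val_mul, ← Matrix.mulVec_mulVec,
        BOR_pow_fix M v hMv j]
    exact BOR_line M.val hMne v _ hv hMv h5
  obtain ⟨α, hα⟩ := heig A hA
  obtain ⟨β, hβ⟩ := heig B hB
  set K := (B * A)⁻¹ * (A * B) with hK
  have hKW : K ∈ W := W.mul_mem (W.inv_mem (W.mul_mem hB hA)) (W.mul_mem hA hB)
  have hAB : (A * B).val *ᵥ v = (B * A).val *ᵥ v := by
    rw [Units.val_mul, Units.val_mul, ← Matrix.mulVec_mulVec, ← Matrix.mulVec_mulVec, hα, hβ,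
      Matrix.mulVec_smul, Matrix.mulVec_smul, hα, hβ, smul_smul, smul_smul, mul_comm]
  have hKv : K.val *ᵥ v = v := by
    rw [hK, Units.val_mul, ← Matrix.mulVec_mulVec, hAB, Matrix.mulVec_mulVec, ← Units.val_mul,
      inv_mul_cancel]
    simp
  have hKdet : K.val.det = 1 := by
    rw [← Matrix.GeneralLinearGroup.val_det_apply, hK, map_mul, map_inv, map_mul, map_mul,
      mul_comm (GeneralLinearGroup.det B), inv_mul_cancel]
    rfl
  have hKp := BOR_unipotent K hKdet v hv hKv
  have hK1 : K = 1 := by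
    have a1 := orderOf_dvd_of_pow_eq_one hKp
    have a2 := W.orderOf_dvd_natCard hKW
    exact orderOf_eq_one_iff.1 (Nat.eq_one_of_dvd_coprimes hW a2 a1)
  rw [hK, inv_mul_eq_one] at hK1
  exact hK1.symm

end Cfsg.Agent.Lib.Helper26.ES3
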