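import Mathlib

set_option autoImplicit false

namespace Cfsg.Agent.Lib.Helper26.ES3

open Matrix

variable {F : Type*} [Field F]

theorem det2_ne {x y : Fin 2 → F} (hx : x ≠ 0) (hxy : ∀ c : F, y ≠ c • x) :
    x 0 * y 1 - x 1 * y 0 ≠ 0 := by
  intro hd
  by_cases h0 : x 0 = 0
  · have h1 : x 1 ≠ 0 := by
      intro h1
      apply hx
      funext i
      fin_cases i <;> simp [h0, h1]
    apply hxy (y 1 / x 1)
    have hy0 : y 0 = 0 := by
      rw [h0] at hd
      have : x 1 * y 0 = 0 := by linear_combination -hd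
      rcases mul_eq_zero.1 this with h | h
      · exact absurd h h1
      · exact h
    funext i
    fin_cases i
    · simp [h0, hy0]
    · simp; field_simp
  · apply hxy (y 0 / x 0)
    funext i
    fin_cases i
    · simp; field_simp
    · simp; field_simp; linear_combination hd

theorem span2 {x y : Fin 2 → F} (hx : x ≠ 0) (hxy : ∀ c : F, y ≠ c • x) (u : Fin 2 → F) :
    ∃ α β : F, u = α • x + β • y := by
  have hd := det2_ne hx hxy
  refine ⟨(u 0 * y 1 - u 1 * y 0) / (x 0 * y 1 - x 1 * y 0),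
    (x 0 * u 1 - x 1 * u 0) / (x 0 * y 1 - x 1 * y 0), ?_⟩
  set d := x 0 * y 1 - x 1 * y 0 with hdd
  funext i
  fin_cases i
  · show u 0 = (u 0 * y 1 - u 1 * y 0) / d * x 0 + (x 0 * u 1 - x 1 * u 0) / d * y 0
    field_simp
    rw [hdd]; ring
  · show u 1 = (u 0 * y 1 - u 1 * y 0) / d * x 1 + (x 0 * u 1 - x 1 * u 0) / d * y 1
    field_simp
    rw [hdd]; ring

theorem scalar_of_two (M : Matrix (Fin 2) (Fin 2) F) {x y : Fin 2 → F} (hx : x ≠ 0)
    (hxy : ∀ c : F, y ≠ c • x) (l : F) (h1 : M.mulVec x = l • x) (h2 : M.mulVec y = l • y)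
    (u : Fin 2 → F) : M.mulVec u = l • u := by
  obtain ⟨α, β, rfl⟩ := span2 hx hxy u
  rw [mulVec_add, mulVec_smul, mulVec_smul, h1, h2, smul_add, smul_comm, smul_comm l β]

theorem indep2 {x y : Fin 2 → F} (hx : x ≠ 0) (hxy : ∀ c : F, y ≠ c • x) {α β : F}
    (h : α • x + β • y = 0) : α = 0 ∧ β = 0 := by
  have hβ : β = 0 := by
    by_contra hβ
    apply hxy (-α / β)
    have : β • y = (-α) • x := by
      rw [neg_smul]; exact eq_neg_of_add_eq_zero_right h
    calc y = β⁻¹ • (β • y) := by rw [smul_smul, inv_mul_cancel₀ hβ, one_smul]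
      _ = (-α / β) • x := by rw [this, smul_smul]; congr 1; field_simp
  refine ⟨?_, hβ⟩
  rw [hβ, zero_smul, add_zero] at h
  rcases smul_eq_zero.1 h with h | h
  · exact h
  · exact absurd h hx

/-- three pairwise non proportional eigenvectors: scalar -/
theorem three_eig (M : Matrix (Fin 2) (Fin 2) F) {x y w : Fin 2 → F} (hx : x ≠ 0)
    (hxy : ∀ c : F, y ≠ c • x) (hxw : ∀ c : F, w ≠ c • x) (hyw : ∀ c : F, w ≠ c • y)
    (l m k : F) (h1 : M.mulVec x = l • x) (h2 : M.mulVec y = m • y) (h3 : M.mulVec w = k • w)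
    (u : Fin 2 → F) : M.mulVec u = l • u := by
  obtain ⟨α, β, hw⟩ := span2 hx hxy w
  have hα : α ≠ 0 := by
    rintro rfl
    exact hyw β (by rw [hw]; simp)
  have hβ : β ≠ 0 := by
    rintro rfl
    exact hxw α (by rw [hw]; simp)
  have e : (α * (l - k)) • x + (β * (m - k)) • y = 0 := by
    have e1 : M.mulVec w = α • (l • x) + β • (m • y) := by
      rw [hw, mulVec_add, mulVec_smul, mulVec_smul, h1, h2]
    rw [h3, hw] at e1
    have : (α * (l - k)) • x + (β * (m - k)) • y
        = (α • (l • x) + β • (m • y)) - k • (α • x + β • y) := by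
      simp only [smul_add, smul_smul, mul_sub, sub_smul]
      rw [mul_comm k α, mul_comm k β]
      abel
    rw [this, ← e1, sub_self]
  obtain ⟨e1, e2⟩ := indep2 hx hxy e
  have hl : l = k := by
    rcases mul_eq_zero.1 e1 with h | h
    · exact absurd h hα
    · exact sub_eq_zero.1 h
  have hm : m = k := by
    rcases mul_eq_zero.1 e2 with h | h
    · exact absurd h hβ
    · exact sub_eq_zero.1 h
  exact scalar_of_two M hx hxy l h1 (by rw [h2, hm, hl]) u

/-- `mk A = 1` iff `A` acts as a scalar -/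
theorem mk_eq_one_iff (A : GL (Fin 2) F) :
    Matrix.ProjGenLinGroup.mk A = 1 ↔
      ∃ s : Fˣ, ∀ u : Fin 2 → F, (A : Matrix (Fin 2) (Fin 2) F).mulVec u = (s : F) • u := by
  rw [Matrix.ProjGenLinGroup.mk_eq_one, Matrix.GeneralLinearGroup.center_eq_range_scalar]
  constructor
  · rintro ⟨s, rfl⟩
    refine ⟨s, fun u => ?_⟩
    simp [Matrix.GeneralLinearGroup.scalar, Matrix.smul_mulVec]
  · rintro ⟨s, hs⟩
    refine ⟨s, ?_⟩
    ext i j
    have := congrFun (hs (Pi.single j 1)) i
    simp [Matrix.GeneralLinearGroup.scalar] at this ⊢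
    rw [this]
    simp [Matrix.diagonal_apply, Pi.single_apply, eq_comm]

end Cfsg.Agent.Lib.Helper26.ES3
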