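import Mathlib

set_option autoImplicit false

namespace Cfsg.Agent.Lib.Helper26.ES3

set_option maxRecDepth 100000 in
theorem alt4_pow (σ : alternatingGroup (Fin 4)) : σ ^ 2 = 1 ∨ σ ^ 3 = 1 := by
  revert σ; decide

set_option maxRecDepth 100000 in
theorem perm4_pow (σ : Equiv.Perm (Fin 4)) : σ ^ 3 = 1 ∨ σ ^ 4 = 1 := by
  revert σ; decide

set_option maxRecDepth 100000 in
theorem alt5_pow (σ : alternatingGroup (Fin 5)) : σ ^ 2 = 1 ∨ σ ^ 3 = 1 ∨ σ ^ 5 = 1 := by
  revert σ; decide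

set_option maxRecDepth 100000 in
theorem perm4_card :
    (Finset.univ.filter (fun σ : Equiv.Perm (Fin 4) => σ ^ 4 = 1 ∧ σ ^ 2 ≠ 1)).card = 6 := by
  decide

theorem perm4_count (f : Fin 7 → Equiv.Perm (Fin 4)) (hf : Function.Injective f)
    (h4 : ∀ j, f j ^ 4 = 1) (h2 : ∀ j, f j ^ 2 ≠ 1) : False := by
  have h := Finset.card_le_card_of_injOn (s := (Finset.univ : Finset (Fin 7)))
    (t := Finset.univ.filter (fun σ : Equiv.Perm (Fin 4) => σ ^ 4 = 1 ∧ σ ^ 2 ≠ 1)) f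
    (fun j _ => by simp [h4 j, h2 j]) (hf.injOn)
  rw [perm4_card] at h
  simp at h

theorem dihedral_commute {m : ℕ} (x y : DihedralGroup m) (hx : x ^ 2 ≠ 1) (hy : y ^ 2 ≠ 1) :
    x * y = y * x := by
  cases x with
  | r i =>
    cases y with
    | r j => simp [add_comm]
    | sr j => exact absurd (by simp [pow_two]) hy
  | sr i => exact absurd (by simp [pow_two]) hx

end Cfsg.Agent.Lib.Helper26.ES3
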