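import Mathlib
import Cfsg.Agent.Lib.Helper41.Dickson.DicksonPGL
import Cfsg.Agent.Lib.Helper26.ES3.Small
import Cfsg.Agent.Lib.Helper26.ES3.Lin
import Cfsg.Agent.Lib.Helper26.ES3.Borel

set_option autoImplicit false

namespace Cfsg.Agent.Lib.Helper26.ES3

open Matrix

variable {p : ℕ} [Fact p.Prime]

theorem pow_mulVec (A : GL (Fin 2) (ZMod p)) (v : Fin 2 → ZMod p) (r : ZMod p)
    (h : (A : Matrix (Fin 2) (Fin 2) (ZMod p)).mulVec v = r • v) (m : ℕ) :
    ((A ^ m : GL (Fin 2) (ZMod p)) : Matrix (Fin 2) (Fin 2) (ZMod p)).mulVec v = r ^ m • v := by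
  induction m with
  | zero => simp
  | succ m ih =>
    rw [pow_succ, Units.val_mul, ← Matrix.mulVec_mulVec, h, Matrix.mulVec_smul, ih, smul_smul,
      pow_succ, mul_comm]

theorem smul_cancel {v : Fin 2 → ZMod p} (hv : v ≠ 0) {s t : ZMod p} (h : s • v = t • v) :
    s = t := by
  have : (s - t) • v = 0 := by rw [sub_smul, h, sub_self]
  rcases smul_eq_zero.1 this with h | h
  · exact sub_eq_zero.1 h
  · exact absurd h hv

theorem scalar_mulVec (c : (ZMod p)ˣ) (u : Fin 2 → ZMod p) :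
    ((Matrix.GeneralLinearGroup.scalar (Fin 2) c : GL (Fin 2) (ZMod p)) :
      Matrix (Fin 2) (Fin 2) (ZMod p)).mulVec u = (c : ZMod p) • u := by
  simp [Matrix.GeneralLinearGroup.scalar]

theorem claim1 {N : Type*} [Group N]
    (ρ : N →* GL (Fin 2) (ZMod p)) (χ : N →* (ZMod p)ˣ)
    (hsc : ∀ (n : N) (s : (ZMod p)ˣ),
      (∀ u : Fin 2 → ZMod p, (ρ n : Matrix (Fin 2) (Fin 2) (ZMod p)).mulVec u = (s : ZMod p) • u) →
        χ n = s ^ 2)
    (a : (ZMod p)ˣ) (ha : orderOf a = p - 1)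
    (n0 : N) (v0 : Fin 2 → ZMod p) (hv0 : v0 ≠ 0)
    (hev : (ρ n0 : Matrix (Fin 2) (Fin 2) (ZMod p)).mulVec v0
      = ((a⁻¹ : (ZMod p)ˣ) : ZMod p) • v0)
    (hχ : χ n0 = a) (m : ℕ) (hm : (Matrix.ProjGenLinGroup.mk (ρ n0)) ^ m = 1) :
    (p - 1) ∣ 3 * m := by
  have h1 : Matrix.ProjGenLinGroup.mk (ρ (n0 ^ m)) = 1 := by rw [map_pow, map_pow]; exact hm
  obtain ⟨s, hs⟩ := (mk_eq_one_iff _).1 h1
  have h2 := hsc _ s hs
  have h3 : (s : ZMod p) • v0 = ((a⁻¹ : (ZMod p)ˣ) : ZMod p) ^ m • v0 := by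
    rw [← hs v0, map_pow]; exact pow_mulVec _ _ _ hev m
  have h4 := smul_cancel hv0 h3
  have h5 : s = a⁻¹ ^ m := Units.ext (by rw [Units.val_pow_eq_pow_val]; exact h4)
  rw [map_pow, hχ, h5, inv_pow] at h2
  have h6 : a ^ (3 * m) = 1 := by
    have : a ^ m * (a ^ m) ^ 2 = 1 := by
      nth_rewrite 1 [h2]
      group
    rw [← this, mul_comm 3 m, pow_mul]
    group
  rw [← ha]
  exact orderOf_dvd_of_pow_eq_one h6

theorem claim2 (A B : GL (Fin 2) (ZMod p)) (vB : Fin 2 → ZMod p) (r : (ZMod p)ˣ) (hvB : vB ≠ 0)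
    (hB : (B : Matrix (Fin 2) (Fin 2) (ZMod p)).mulVec vB = (r : ZMod p) • vB)
    (hcomm : Matrix.ProjGenLinGroup.mk A * Matrix.ProjGenLinGroup.mk B
      = Matrix.ProjGenLinGroup.mk B * Matrix.ProjGenLinGroup.mk A)
    (hB2 : (Matrix.ProjGenLinGroup.mk B) ^ 2 ≠ 1) :
    ∃ t : ZMod p, (A : Matrix (Fin 2) (Fin 2) (ZMod p)).mulVec vB = t • vB := by
  by_contra hcon
  push Not at hcon
  rw [← map_mul, ← map_mul, Matrix.ProjGenLinGroup.mk_eq_mk_iff] at hcomm
  obtain ⟨c, hc⟩ := hcomm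
  have hc2 : c ^ 2 = 1 := by
    have h := congrArg Matrix.GeneralLinearGroup.det hc
    rw [map_mul, map_mul, map_mul] at h
    have hd : Matrix.GeneralLinearGroup.det (Matrix.GeneralLinearGroup.scalar (Fin 2) c) = c ^ 2 := by
      ext
      simp [Matrix.GeneralLinearGroup.scalar]
    rw [hd, mul_comm (Matrix.GeneralLinearGroup.det B)] at h
    exact mul_left_cancel (a := Matrix.GeneralLinearGroup.det A * Matrix.GeneralLinearGroup.det B)
      (by rw [h, mul_one])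
  set u := (A : Matrix (Fin 2) (Fin 2) (ZMod p)).mulVec vB with hu
  have hBu : (B : Matrix (Fin 2) (Fin 2) (ZMod p)).mulVec u = ((c : ZMod p) * r) • u := by
    have h := congrArg (fun X : GL (Fin 2) (ZMod p) =>
      (X : Matrix (Fin 2) (Fin 2) (ZMod p)).mulVec vB) hc
    simp only [Units.val_mul, ← Matrix.mulVec_mulVec] at h
    rw [scalar_mulVec, Matrix.mulVec_smul, hB, Matrix.mulVec_smul, Matrix.mulVec_smul] at h
    rw [hu, ← h, smul_smul]
  apply hB2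
  rw [← map_pow, mk_eq_one_iff]
  refine ⟨r ^ 2, fun w => ?_⟩
  have e1 := pow_mulVec B vB r hB 2
  have e2 := pow_mulVec B u _ hBu 2
  have e3 : ((c : ZMod p) * r) ^ 2 = (r : ZMod p) ^ 2 := by
    have : (c : ZMod p) ^ 2 = 1 := by
      rw [← Units.val_pow_eq_pow_val, hc2, Units.val_one]
    rw [mul_pow, this, one_mul]
  rw [e3] at e2
  have := scalar_of_two _ hvB hcon _ e1 e2 w
  rw [this]; push_cast; rfl


theorem claim4 {N : Type*} [Group N]
    (ρ : N →* GL (Fin 2) (ZMod p)) (χ : N →* (ZMod p)ˣ)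
    (hsc : ∀ (n : N) (s : (ZMod p)ˣ),
      (∀ u : Fin 2 → ZMod p, (ρ n : Matrix (Fin 2) (Fin 2) (ZMod p)).mulVec u = (s : ZMod p) • u) →
        χ n = s ^ 2)
    (r : (ZMod p)ˣ) (n1 n2 : N) (v1 v2 : Fin 2 → ZMod p) (hv1 : v1 ≠ 0) (hv2 : v2 ≠ 0)
    (hv : ∀ c : ZMod p, v2 ≠ c • v1)
    (he1 : (ρ n1 : Matrix (Fin 2) (Fin 2) (ZMod p)).mulVec v1 = (r : ZMod p) • v1)
    (he2 : (ρ n2 : Matrix (Fin 2) (Fin 2) (ZMod p)).mulVec v2 = (r : ZMod p) • v2)
    (hχ : χ n1 = χ n2)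
    (heq : Matrix.ProjGenLinGroup.mk (ρ n1) = Matrix.ProjGenLinGroup.mk (ρ n2))
    (h2 : (Matrix.ProjGenLinGroup.mk (ρ n1)) ^ 2 ≠ 1) : False := by
  obtain ⟨t, ht⟩ := claim2 (ρ n1) (ρ n2) v2 r hv2 he2 (by rw [heq]) (by rw [← heq]; exact h2)
  obtain ⟨c, hc⟩ := Matrix.ProjGenLinGroup.mk_eq_mk_iff.1 heq
  have hc2 : c ^ 2 = 1 := by
    have h1 : ρ (n1⁻¹ * n2) = Matrix.GeneralLinearGroup.scalar (Fin 2) c := by
      rw [map_mul, map_inv, ← hc]; group
    have h3 := hsc (n1⁻¹ * n2) c (fun u => by rw [h1]; exact scalar_mulVec c u)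
    rw [map_mul, map_inv, hχ, inv_mul_cancel] at h3
    exact h3.symm
  have hct : (r : ZMod p) = c * t := by
    apply smul_cancel hv2
    rw [← he2, ← hc, Units.val_mul, ← Matrix.mulVec_mulVec, scalar_mulVec, Matrix.mulVec_smul, ht,
      smul_smul]
  have hc2' : (c : ZMod p) ^ 2 = 1 := by
    rw [← Units.val_pow_eq_pow_val, hc2, Units.val_one]
  have ht2 : t ^ 2 = (r : ZMod p) ^ 2 := by
    rw [hct, mul_pow, hc2', one_mul]
  apply h2
  rw [← map_pow, mk_eq_one_iff]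
  refine ⟨r ^ 2, fun w => ?_⟩
  have e1 := pow_mulVec (ρ n1) v1 r he1 2
  have e2 := pow_mulVec (ρ n1) v2 t ht 2
  rw [ht2] at e2
  have := scalar_of_two _ hv1 hv _ e1 e2 w
  rw [this]; push_cast; rfl

theorem card_subfield_zmod (K : Subfield (ZMod p)) : Nat.card K = p := by
  have h1 : Nat.card K ∣ Nat.card (ZMod p) :=
    AddSubgroup.card_addSubgroup_dvd_card K.toAddSubgroup
  rw [Nat.card_zmod] at h1
  rcases (Nat.Prime.eq_one_or_self_of_dvd (Fact.out : p.Prime) _ h1) with h | h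
  · have : 1 < Nat.card K := Finite.one_lt_card
    omega
  · exact h

/-- Lemma M, matrix form, core. -/
theorem core (hp2 : p ≠ 2) {N : Type*} [Group N] [Finite N]
    (ρ : N →* GL (Fin 2) (ZMod p)) (χ : N →* (ZMod p)ˣ)
    (hcop : (Nat.card ρ.range).Coprime p)
    (hsc : ∀ (n : N) (s : (ZMod p)ˣ),
      (∀ u : Fin 2 → ZMod p, (ρ n : Matrix (Fin 2) (Fin 2) (ZMod p)).mulVec u = (s : ZMod p) • u) →
        χ n = s ^ 2)
    (a : (ZMod p)ˣ) (ha : orderOf a = p - 1)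
    {k : ℕ} (n : Fin k → N) (v : Fin k → (Fin 2 → ZMod p))
    (hv0 : ∀ j, v j ≠ 0)
    (hv : ∀ i j, i ≠ j → ∀ c : ZMod p, v j ≠ c • v i)
    (hev : ∀ j, (ρ (n j) : Matrix (Fin 2) (Fin 2) (ZMod p)).mulVec (v j)
      = ((a⁻¹ : (ZMod p)ˣ) : ZMod p) • v j)
    (hχ : ∀ j, χ (n j) = a) (hk : 3 ≤ k) (hp : 11 ≤ p) (hor : p ≠ 13 ∨ 7 ≤ k) : False := by
  classical
  have hprime : p.Prime := Fact.out
  let H : Subgroup (Matrix.ProjGenLinGroup (Fin 2) (ZMod p)) :=
    ((Matrix.ProjGenLinGroup.mk (n := Fin 2) (R := ZMod p)).comp ρ).range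
  let g : Fin k → Matrix.ProjGenLinGroup (Fin 2) (ZMod p) :=
    fun j => Matrix.ProjGenLinGroup.mk (ρ (n j))
  have hgH : ∀ j, g j ∈ H := fun j => ⟨n j, rfl⟩
  have hHmap : H = ρ.range.map (Matrix.ProjGenLinGroup.mk (n := Fin 2) (R := ZMod p)) :=
    (MonoidHom.map_range _ ρ).symm
  have hHcop : (Nat.card H).Coprime p := by
    rw [hHmap]; exact Nat.Coprime.coprime_dvd_left (Subgroup.card_map_dvd _ _) hcop
  have c1 : ∀ j m, g j ^ m = 1 → (p - 1) ∣ 3 * m := fun j m hm =>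
    claim1 ρ χ hsc a ha (n j) (v j) (hv0 j) (hev j) (hχ j) m hm
  have h2 : ∀ j, g j ^ 2 ≠ 1 := fun j h => by
    have := Nat.le_of_dvd (by norm_num) (c1 j 2 h); omega
  have h3 : ∀ j, g j ^ 3 ≠ 1 := fun j h => by
    have := Nat.le_of_dvd (by norm_num) (c1 j 3 h); omega
  have h5 : ∀ j, g j ^ 5 ≠ 1 := fun j h => by
    have h' := c1 j 5 h
    have := Nat.le_of_dvd (by norm_num) h'
    have hp16 : p ≤ 16 := by omega
    interval_cases p <;> revert h' <;> revert hprime <;> decide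
  have h4 : ∀ j, g j ^ 4 = 1 → p = 13 := fun j h => by
    have h' := c1 j 4 h
    have := Nat.le_of_dvd (by norm_num) h'
    have hp16 : p ≤ 13 := by omega
    interval_cases p <;> first | rfl | (revert h'; decide)
  have hinj : Function.Injective g := by
    intro i j hij
    by_contra hne
    exact claim4 ρ χ hsc a⁻¹ (n i) (n j) (v i) (v j) (hv0 i) (hv0 j) (hv i j hne) (hev i) (hev j)
      (by rw [hχ, hχ]) hij (h2 i)
  have comm_contra : (∀ i j, g i * g j = g j * g i) → False := by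
    intro hc
    let i0 : Fin k := ⟨0, by omega⟩
    let i1 : Fin k := ⟨1, by omega⟩
    let i2 : Fin k := ⟨2, by omega⟩
    have h01 : i0 ≠ i1 := by simp [i0, i1, Fin.ext_iff]
    have h02 : i0 ≠ i2 := by simp [i0, i2, Fin.ext_iff]
    have h12 : i1 ≠ i2 := by simp [i1, i2, Fin.ext_iff]
    obtain ⟨t1, ht1⟩ := claim2 (ρ (n i0)) (ρ (n i1)) (v i1) a⁻¹ (hv0 i1) (hev i1) (hc i0 i1) (h2 i1)
    obtain ⟨t2, ht2⟩ := claim2 (ρ (n i0)) (ρ (n i2)) (v i2) a⁻¹ (hv0 i2) (hev i2) (hc i0 i2) (h2 i2)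
    have := three_eig (ρ (n i0) : Matrix (Fin 2) (Fin 2) (ZMod p)) (hv0 i0) (hv i0 i1 h01)
      (hv i0 i2 h02) (hv i1 i2 h12) _ _ _ (hev i0) ht1 ht2
    have h1 : g i0 = 1 := (mk_eq_one_iff _).2 ⟨a⁻¹, this⟩
    exact h2 i0 (by rw [h1, one_pow])
  have h2F : (2 : ZMod p) ≠ 0 := by
    intro h
    have : (p : ℕ) ∣ 2 := (ZMod.natCast_eq_zero_iff 2 p).1 (by exact_mod_cast h)
    have := Nat.le_of_dvd (by norm_num) this
    omega
  rcases Cfsg.Agent.Lib.Helper41.Dickson.dickson_pgl p h2F H with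
    ⟨hc, -⟩ | ⟨m, -, ⟨e⟩⟩ | ⟨S, hS⟩ | ⟨⟨e⟩⟩ | ⟨⟨e⟩⟩ | ⟨⟨e⟩⟩ | ⟨K, hK⟩
  · -- cyclic
    apply comm_contra
    intro i j
    have := (isMulCommutative_iff.1 (IsCyclic.isMulCommutative (α := H))) ⟨g i, hgH i⟩ ⟨g j, hgH j⟩
    exact congrArg Subtype.val this
  · -- dihedral
    apply comm_contra
    intro i j
    have hx : ∀ j, (e ⟨g j, hgH j⟩) ^ 2 ≠ 1 := by
      intro j h
      rw [← map_pow, map_eq_one_iff e e.injective] at h
      exact h2 j (congrArg Subtype.val h)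
    have := dihedral_commute _ _ (hx i) (hx j)
    rw [← map_mul, ← map_mul] at this
    exact congrArg Subtype.val (e.injective this)
  · -- Borel
    apply comm_contra
    intro i j
    have := borel_commute hp2 ρ.range hcop S (by rw [← hHmap]; exact hS) (ρ (n i)) (ρ (n j))
      ⟨n i, rfl⟩ ⟨n j, rfl⟩
    show Matrix.ProjGenLinGroup.mk (ρ (n i)) * Matrix.ProjGenLinGroup.mk (ρ (n j)) = _
    rw [← map_mul, this, map_mul]
  · -- A4
    let i0 : Fin k := ⟨0, by omega⟩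
    rcases alt4_pow (e ⟨g i0, hgH i0⟩) with h | h
    · rw [← map_pow, map_eq_one_iff e e.injective] at h
      exact h2 i0 (congrArg Subtype.val h)
    · rw [← map_pow, map_eq_one_iff e e.injective] at h
      exact h3 i0 (congrArg Subtype.val h)
  · -- S4
    have h44 : ∀ j, g j ^ 4 = 1 := by
      intro j
      rcases perm4_pow (e ⟨g j, hgH j⟩) with h | h
      · rw [← map_pow, map_eq_one_iff e e.injective] at h
        exact absurd (congrArg Subtype.val h) (h3 j)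
      · rw [← map_pow, map_eq_one_iff e e.injective] at h
        exact congrArg Subtype.val h
    rcases hor with h13 | h7
    · exact h13 (h4 ⟨0, by omega⟩ (h44 _))
    · apply perm4_count (fun j : Fin 7 => e ⟨g (Fin.castLE h7 j), hgH _⟩)
      · intro i j hij
        have := congrArg Subtype.val (e.injective hij)
        exact Fin.castLE_injective h7 (hinj this)
      · intro j
        rw [← map_pow, map_eq_one_iff e e.injective]
        exact Subtype.ext (h44 _)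
      · intro j h
        rw [← map_pow, map_eq_one_iff e e.injective] at h
        exact h2 _ (congrArg Subtype.val h)
  · -- A5
    let i0 : Fin k := ⟨0, by omega⟩
    rcases alt5_pow (e ⟨g i0, hgH i0⟩) with h | h | h
    · rw [← map_pow, map_eq_one_iff e e.injective] at h
      exact h2 i0 (congrArg Subtype.val h)
    · rw [← map_pow, map_eq_one_iff e e.injective] at h
      exact h3 i0 (congrArg Subtype.val h)
    · rw [← map_pow, map_eq_one_iff e e.injective] at h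
      exact h5 i0 (congrArg Subtype.val h)
  · -- PSL2(K), PGL2(K)
    have hK' := card_subfield_zmod K
    have hdvd : p ∣ Nat.card H := by
      rcases hK with ⟨⟨e⟩⟩ | ⟨⟨e⟩⟩
      · rw [Nat.card_congr e.toEquiv]
        have h := Cfsg.Agent.Lib.Helper41.Dickson.natCard_PSL2 K
        rw [hK'] at h
        have h1 : p ∣ Nat.gcd 2 (p - 1) *
            Nat.card (Matrix.ProjectiveSpecialLinearGroup (Fin 2) K) := by
          rw [h]; exact Dvd.intro _ rfl
        rcases (Nat.Prime.dvd_mul hprime).1 h1 with h1 | h1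
        · have := Nat.le_of_dvd (by norm_num) (h1.trans (Nat.gcd_dvd_left 2 (p - 1)))
          omega
        · exact h1
      · rw [Nat.card_congr e.toEquiv, Cfsg.Agent.Lib.Helper41.Dickson.natCard_PGL2 K, hK']
        exact Dvd.intro _ rfl
    have := Nat.Coprime.eq_one_of_dvd hHcop.symm hdvd
    omega

/-- Lemma M, matrix form. -/
theorem lemmaM_mat (hp2 : p ≠ 2) {N : Type*} [Group N] [Finite N]
    (ρ : N →* GL (Fin 2) (ZMod p)) (χ : N →* (ZMod p)ˣ)
    (hcop : (Nat.card ρ.range).Coprime p)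
    (hsc : ∀ (n : N) (s : (ZMod p)ˣ),
      (∀ u : Fin 2 → ZMod p, (ρ n : Matrix (Fin 2) (Fin 2) (ZMod p)).mulVec u = (s : ZMod p) • u) →
        χ n = s ^ 2)
    (a : (ZMod p)ˣ) (ha : orderOf a = p - 1)
    {k : ℕ} (n : Fin k → N) (v : Fin k → (Fin 2 → ZMod p))
    (hv0 : ∀ j, v j ≠ 0)
    (hv : ∀ i j, i ≠ j → ∀ c : ZMod p, v j ≠ c • v i)
    (hev : ∀ j, (ρ (n j) : Matrix (Fin 2) (Fin 2) (ZMod p)).mulVec (v j)
      = ((a⁻¹ : (ZMod p)ˣ) : ZMod p) • v j)
    (hχ : ∀ j, χ (n j) = a) :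
    (3 ≤ k → p ≤ 13) ∧ (7 ≤ k → p ≤ 7) := by
  have hprime : p.Prime := Fact.out
  constructor
  · intro hk
    by_contra hp
    exact core hp2 ρ χ hcop hsc a ha n v hv0 hv hev hχ hk (by omega) (Or.inl (by omega))
  · intro hk
    by_contra hp
    have hp11 : 11 ≤ p := by
      by_contra h
      have h1 : p ≤ 10 := by omega
      have h2 : 8 ≤ p := by omega
      interval_cases p <;> revert hprime <;> decide
    exact core hp2 ρ χ hcop hsc a ha n v hv0 hv hev hχ (by omega) hp11 (Or.inr hk)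

end Cfsg.Agent.Lib.Helper26.ES3
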