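import Mathlib
import Cfsg.Agent.Lib.Helper26.ES3.Mat

set_option autoImplicit false

namespace Cfsg.Agent.Lib.Helper26.ES3

open Matrix

/-- the matrix of a linear automorphism in a basis, as a homomorphism to `GL` -/
noncomputable def TR_psi {R V : Type*} [CommRing R] [AddCommGroup V] [Module R V]
    (b : Module.Basis (Fin 2) R V) : (V ≃ₗ[R] V) →* GL (Fin 2) R :=
  MonoidHom.toHomUnits
    { toFun := fun φ => LinearMap.toMatrix b b (φ : V →ₗ[R] V)
      map_one' := by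
        show LinearMap.toMatrix b b (LinearMap.id) = 1
        exact LinearMap.toMatrix_id b
      map_mul' := fun φ ψ => by
        show LinearMap.toMatrix b b ((φ : V →ₗ[R] V) ∘ₗ (ψ : V →ₗ[R] V)) = _
        exact LinearMap.toMatrix_comp b b b _ _ }

theorem TR_psi_mulVec {R V : Type*} [CommRing R] [AddCommGroup V] [Module R V]
    (b : Module.Basis (Fin 2) R V) (φ : V ≃ₗ[R] V) (u : V) :
    (TR_psi b φ : Matrix (Fin 2) (Fin 2) R).mulVec (b.equivFun u) = b.equivFun (φ u) := by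
  show (LinearMap.toMatrix b b (φ : V →ₗ[R] V)).mulVec (b.repr u) = b.repr (φ u)
  exact LinearMap.toMatrix_mulVec_repr b b _ u

theorem lemmaM {p : ℕ} [Fact p.Prime] (hp2 : p ≠ 2) {N : Type*} [Group N] [Finite N]
    {V : Type*} [AddCommGroup V] [Module (ZMod p) V] (hV : Module.finrank (ZMod p) V = 2)
    (ρ : N →* (V ≃ₗ[ZMod p] V)) (χ : N →* (ZMod p)ˣ)
    (hcop : (Nat.card ρ.range).Coprime p)
    (hsc : ∀ (n : N) (s : (ZMod p)ˣ), (∀ u : V, ρ n u = (s : ZMod p) • u) → χ n = s ^ 2)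
    (a : (ZMod p)ˣ) (ha : orderOf a = p - 1)
    {k : ℕ} (n : Fin k → N) (v : Fin k → V)
    (hv0 : ∀ j, v j ≠ 0)
    (hv : ∀ i j, i ≠ j → ∀ c : ZMod p, v j ≠ c • v i)
    (hev : ∀ j, ρ (n j) (v j) = ((a⁻¹ : (ZMod p)ˣ) : ZMod p) • v j)
    (hχ : ∀ j, χ (n j) = a) :
    (3 ≤ k → p ≤ 13) ∧ (7 ≤ k → p ≤ 7) := by
  have hfin : Module.Finite (ZMod p) V := Module.finite_of_finrank_pos (by rw [hV]; norm_num)
  have b : Module.Basis (Fin 2) (ZMod p) V := Module.finBasisOfFinrankEq _ _ hV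
  apply lemmaM_mat hp2 ((TR_psi b).comp ρ) χ ?_ ?_ a ha n (fun j => b.equivFun (v j)) ?_ ?_ ?_ hχ
  · rw [← MonoidHom.map_range]
    exact Nat.Coprime.coprime_dvd_left (Subgroup.card_map_dvd _ _) hcop
  · intro m s h
    apply hsc m s
    intro u
    apply b.equivFun.injective
    rw [← TR_psi_mulVec, map_smul]
    exact h _
  · intro j
    exact (LinearEquiv.map_ne_zero_iff _).2 (hv0 j)
  · intro i j hij c h
    apply hv i j hij c
    apply b.equivFun.injective
    rw [map_smul]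
    exact h
  · intro j
    show (TR_psi b (ρ (n j)) : Matrix (Fin 2) (Fin 2) (ZMod p)).mulVec (b.equivFun (v j)) = _
    rw [TR_psi_mulVec, hev, map_smul]

end Cfsg.Agent.Lib.Helper26.ES3
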